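/-
Block matrices in the special unitary group `SU₃`.
-/
import Cfsg.Agent.Lib.PSL3Two.Case2
import Cfsg.Agent.Lib.Classical.UnitaryCenter

set_option autoImplicit false

namespace Cfsg.Agent.Lib.PSU3Two

open Cfsg Matrix Cfsg.Agent.Lib.SLn Cfsg.Agent.Lib.Fusion Cfsg.Agent.Lib.PSL3Two Cfsg.Agent.Lib.Classical

open Cfsg.Agent.Lib.GLFlag (SLn)

/-- Restriction of the data to a subgroup. -/
def res {M : Type*} [Group M] (D : Dat M) (K : Subgroup M) (h : D.τ ∈ K) : Dat K where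
  B := D.B.comap K.subtype
  hB := fun _ hx _ hy => Subtype.ext (D.hB _ hx _ hy)
  τ := ⟨D.τ, h⟩
  hτ := Subtype.ext D.hτ
  hτB := fun _ hb => D.hτB _ hb
  hτn := fun h' => D.hτn h'

section res

variable {M : Type*} [Group M] (D : Dat M) (K : Subgroup M) (h : D.τ ∈ K)

lemma res_B {y : K} : y ∈ (res D K h).B ↔ y.1 ∈ D.B := Iff.rfl

lemma res_A {y : K} : y ∈ (res D K h).A ↔ y.1 ∈ D.A := by
  constructor
  · rintro ⟨h1, e, he⟩
    exact ⟨h1, e, by simpa using congrArg Subtype.val he⟩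
  · rintro ⟨h1, e, he⟩
    exact ⟨h1, e, Subtype.ext (by simpa using he)⟩

lemma res_S0 {y : K} : y ∈ (res D K h).S0 ↔ y.1 ∈ D.S0 := by
  constructor
  · rintro (h1 | h1)
    · exact Or.inl ((res_A D K h).1 h1)
    · exact Or.inr ((res_A D K h).1 h1)
  · rintro (h1 | h1)
    · exact Or.inl ((res_A D K h).2 h1)
    · exact Or.inr ((res_A D K h).2 h1)

lemma res_conj {g : K} (hg : g ∈ Subgroup.normalizer (((res D K h).S0 : Subgroup K) : Set K)) :
    ∀ x ∈ K, x ∈ D.S0 → g.1 * x * g.1⁻¹ ∈ D.S0 := by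
  intro x hx hxS
  exact (res_S0 D K h).1 (conj_mem_of_mem_normalizer hg ((res_S0 D K h (y := ⟨x, hx⟩)).2 hxS))

lemma res_conj' {g : K} (hg : g ∈ Subgroup.normalizer (((res D K h).S0 : Subgroup K) : Set K)) :
    ∀ x ∈ K, x ∈ D.S0 → g.1⁻¹ * x * g.1 ∈ D.S0 := by
  intro x hx hxS
  have := res_conj D K h (inv_mem hg) x hx hxS
  simpa using this

end res

variable {F : Type*} [Field F] [Fintype F] {q : ℕ}

lemma H_eq3 (u v : Fin 3 → F) : Cfsg.hermForm 3 F q u v = u 0 * (v 0) ^ q + u 1 * (v 1) ^ q + u 2 * (v 2) ^ q := by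
  simp [Cfsg.hermForm, Fin.sum_univ_three]

lemma bk_mulVec {p r s u m : F} (h : (p * u - r * s) * m = 1) (v : Fin 3 → F) :
    ((bk p r s u m h : SLn 3 F) : Matrix (Fin 3) (Fin 3) F) *ᵥ v = ![p * v 0 + r * v 1, s * v 0 + u * v 1, m * v 2] := by
  ext i
  fin_cases i <;> simp [bk, Matrix.mulVec, dotProduct, Fin.sum_univ_three]

/-- A unitary block matrix. -/
lemma bk_mem (hF : Fintype.card F = q ^ 2) {p r s u m : F} {h : (p * u - r * s) * m = 1}
    (h1 : p * p ^ q + s * s ^ q = 1) (h2 : p * r ^ q + s * u ^ q = 0) (h3 : r * r ^ q + u * u ^ q = 1)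
    (h4 : m * m ^ q = 1) : bk p r s u m h ∈ Cfsg.SU 3 F q := by
  have hq := one_lt_q hF
  have h2' : r * p ^ q + u * s ^ q = 0 := by
    have := congrArg (· ^ q) h2
    simp only [pow_q_add hF, mul_pow, pow_q_pow_q hF] at this
    rw [zero_pow (by omega)] at this
    linear_combination this
  intro v w
  show Cfsg.hermForm 3 F q (((bk p r s u m h : SLn 3 F) : Matrix (Fin 3) (Fin 3) F) *ᵥ v)
    (((bk p r s u m h : SLn 3 F) : Matrix (Fin 3) (Fin 3) F) *ᵥ w) = Cfsg.hermForm 3 F q v w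
  rw [bk_mulVec, bk_mulVec, H_eq3, H_eq3]
  simp only [Matrix.cons_val_zero, Matrix.cons_val_one, Matrix.cons_val, pow_q_add hF, mul_pow]
  linear_combination v 0 * w 0 ^ q * h1 + v 0 * w 1 ^ q * h2 + v 1 * w 0 ^ q * h2' + v 1 * w 1 ^ q * h3 + v 2 * w 2 ^ q * h4

/-- The conditions from membership. -/
lemma bk_uni (hF : Fintype.card F = q ^ 2) {p r s u m : F} {h : (p * u - r * s) * m = 1}
    (hm : bk p r s u m h ∈ Cfsg.SU 3 F q) :
    p * p ^ q + s * s ^ q = 1 ∧ p * r ^ q + s * u ^ q = 0 ∧ r * r ^ q + u * u ^ q = 1 ∧ m * m ^ q = 1 := by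
  have hq := one_lt_q hF
  have key : ∀ v w : Fin 3 → F, Cfsg.hermForm 3 F q (((bk p r s u m h : SLn 3 F) : Matrix (Fin 3) (Fin 3) F) *ᵥ v)
    (((bk p r s u m h : SLn 3 F) : Matrix (Fin 3) (Fin 3) F) *ᵥ w) = Cfsg.hermForm 3 F q v w := hm
  have h0q : (0 : F) ^ q = 0 := zero_pow (by omega)
  refine ⟨?_, ?_, ?_, ?_⟩
  · have := key ![1, 0, 0] ![1, 0, 0]
    simp only [bk_mulVec, H_eq3] at this
    simpa [h0q] using this
  · have := key ![1, 0, 0] ![0, 1, 0]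
    simp only [bk_mulVec, H_eq3] at this
    simpa [h0q] using this
  · have := key ![0, 1, 0] ![0, 1, 0]
    simp only [bk_mulVec, H_eq3] at this
    simpa [h0q] using this
  · have := key ![0, 0, 1] ![0, 0, 1]
    simp only [bk_mulVec, H_eq3] at this
    simpa [h0q] using this

/-- The permutation matrix is unitary. -/
lemma sg_mem : (sg : SLn 3 F) ∈ Cfsg.SU 3 F q := by
  intro v w
  have e : ∀ v : Fin 3 → F, ((sg : SLn 3 F) : Matrix (Fin 3) (Fin 3) F) *ᵥ v = ![v 2, v 0, v 1] := by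
    intro v
    ext i
    fin_cases i <;> simp [sg, Matrix.mulVec, dotProduct, Fin.sum_univ_three]
  show Cfsg.hermForm 3 F q (((sg : SLn 3 F) : Matrix (Fin 3) (Fin 3) F) *ᵥ v)
    (((sg : SLn 3 F) : Matrix (Fin 3) (Fin 3) F) *ᵥ w) = Cfsg.hermForm 3 F q v w
  rw [e, e, H_eq3, H_eq3]
  simp only [Matrix.cons_val_zero, Matrix.cons_val_one, Matrix.cons_val]
  ring

lemma z0_memU (hF : Fintype.card F = q ^ 2) : (z0 : SLn 3 F) ∈ Cfsg.SU 3 F q := by
  have hn := conjQ_neg hF (1 : F)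
  rw [one_pow] at hn
  have hq := one_lt_q hF
  have h0q : (0 : F) ^ q = 0 := zero_pow (by omega)
  refine bk_mem hF ?_ ?_ ?_ ?_
  · rw [hn, h0q]; ring
  · rw [hn, h0q]; ring
  · rw [hn, h0q]; ring
  · rw [one_pow]; ring

lemma t1_memU (hF : Fintype.card F = q ^ 2) : (t1 : SLn 3 F) ∈ Cfsg.SU 3 F q := by
  have hn := conjQ_neg hF (1 : F)
  rw [one_pow] at hn
  have hq := one_lt_q hF
  have h0q : (0 : F) ^ q = 0 := zero_pow (by omega)
  refine bk_mem hF ?_ ?_ ?_ ?_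
  · rw [one_pow, h0q]; ring
  · rw [one_pow, h0q]; ring
  · rw [one_pow, h0q]; ring
  · rw [hn]; ring

lemma t2_memU (hF : Fintype.card F = q ^ 2) : (t2 : SLn 3 F) ∈ Cfsg.SU 3 F q := by
  have hn := conjQ_neg hF (1 : F)
  rw [one_pow] at hn
  have hq := one_lt_q hF
  have h0q : (0 : F) ^ q = 0 := zero_pow (by omega)
  refine bk_mem hF ?_ ?_ ?_ ?_
  · rw [one_pow, h0q]; ring
  · rw [h0q]; ring
  · rw [h0q, hn]; ring
  · rw [hn]; ring

/-- An involution is unitary-conjugate: the element of `SU₃` sending `t2` to `z0`. -/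
lemma sg_z0 : sg * (z0 : SLn 3 F) * sg⁻¹ = t2 := sg_conj _ _ _ _ _

lemma neg_one_q (hF : Fintype.card F = q ^ 2) : (-1 : F) ^ q = -1 := by
  have hn := conjQ_neg hF (1 : F)
  rwa [one_pow] at hn

end Cfsg.Agent.Lib.PSU3Two
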