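/-
`SU₃(q)`, first case: a square root of `-1` of norm one.
-/
import Cfsg.Agent.Lib.PSU3Two.Basic

set_option autoImplicit false

namespace Cfsg.Agent.Lib.PSU3Two

open Cfsg Matrix Cfsg.Agent.Lib.SLn Cfsg.Agent.Lib.Fusion Cfsg.Agent.Lib.PSL3Two Cfsg.Agent.Lib.Classical

open Cfsg.Agent.Lib.GLFlag (SLn)

variable {F : Type*} [Field F] [Fintype F] {q : ℕ}

lemma dd_memU (hF : Fintype.card F = q ^ 2) {a b c : F} {h : a * b * c = 1} (ha : a ^ (q + 1) = 1) (hb : b ^ (q + 1) = 1)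
    (hc : c ^ (q + 1) = 1) : dd a b c h ∈ Cfsg.SU 3 F q := by
  have hq := one_lt_q hF
  have h0q : (0 : F) ^ q = 0 := zero_pow (by omega)
  refine bk_mem hF ?_ ?_ ?_ ?_
  · rw [h0q, ← pow_succ', ha]; ring
  · rw [h0q]; ring
  · rw [h0q, ← pow_succ', hb]; ring
  · rw [← pow_succ', hc]

lemma dd_uni (hF : Fintype.card F = q ^ 2) {a b c : F} {h : a * b * c = 1} (hm : dd a b c h ∈ Cfsg.SU 3 F q) :
    a ^ (q + 1) = 1 ∧ b ^ (q + 1) = 1 ∧ c ^ (q + 1) = 1 := by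
  have hq := one_lt_q hF
  have h0q : (0 : F) ^ q = 0 := zero_pow (by omega)
  obtain ⟨h1, -, h3, h4⟩ := bk_uni hF hm
  rw [h0q] at h1 h3
  refine ⟨?_, ?_, ?_⟩
  · rw [pow_succ']; linear_combination h1
  · rw [pow_succ']; linear_combination h3
  · rw [pow_succ']; linear_combination h4

/-- The data for `SU₃`. -/
def D1L (hF : Fintype.card F = q ^ 2) : Dat (Cfsg.SU 3 F q) := res D1 _ (t1_memU hF)

/-- The central involution as an element of `SU₃`. -/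
def z0L (hF : Fintype.card F = q ^ 2) : Cfsg.SU 3 F q := ⟨z0, z0_memU hF⟩

lemma z0L_ne (hF : Fintype.card F = q ^ 2) (h2 : (2 : F) ≠ 0) : z0L hF ≠ 1 := fun h => z0_ne h2 (congrArg Subtype.val h)

lemma z0L_sq (hF : Fintype.card F = q ^ 2) : z0L hF * z0L hF = 1 := Subtype.ext z0_sq

lemma xx_memU (hF : Fintype.card F = q ^ 2) : dd (-1 : F) 1 (-1) xx_eq ∈ Cfsg.SU 3 F q := by
  have e : (-1 : F) ^ (q + 1) = 1 := neg_one_norm hF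
  exact dd_memU hF e (one_pow _) e

/-- Uniqueness of the central involution. -/
lemma cu1 (h2 : (2 : F) ≠ 0) {ζ : F} (hζ : ζ * ζ = -1) {v : SLn 3 F} (hv : v ∈ (D1 : Dat (SLn 3 F)).S0) (hv1 : v ≠ 1)
    (hv2 : v * v = 1) (hx : v * dd (-1 : F) 1 (-1) xx_eq = dd (-1 : F) 1 (-1) xx_eq * v) (ht : v * t1 = t1 * v) : v = z0 := by
  have hvA := not_comm_xx h2 hζ hv hx
  obtain ⟨a, b, c, h, rfl⟩ := TT_form hvA.1
  have h3 : t1 * dd a b c h * t1 = dd a b c h := by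
    rw [← ht, mul_assoc, t1_sq, mul_one]
  rw [t1_conj] at h3
  have hab : b = a := (dd_inj h3).1
  subst hab
  rw [dd_mul, ← dd_one] at hv2
  obtain ⟨h5, -, h7⟩ := dd_inj hv2
  have hc1 : c = 1 := by
    have : b * b * c = 1 := h
    rw [h5, one_mul] at this
    exact this
  subst hc1
  have h8 : (b - 1) * (b + 1) = 0 := by linear_combination h5
  rcases mul_eq_zero.1 h8 with h9 | h9
  · exfalso
    apply hv1
    have : b = 1 := sub_eq_zero.1 h9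
    subst this
    exact dd_one
  · have : b = -1 := by linear_combination h9
    subst this
    rfl

variable (hF : Fintype.card F = q ^ 2) (h2 : (2 : F) ≠ 0) {ζ : F} (hζ : ζ * ζ = -1) (hζn : ζ ^ (q + 1) = 1)

include hF h2 hζ hζn

/-- The normalizer, at the level of matrices. -/
theorem H1core {g : SLn 3 F} (hz : g * z0 = z0 * g)
    (hS : ∀ x ∈ Cfsg.SU 3 F q, x ∈ (D1 : Dat (SLn 3 F)).S0 → g * x * g⁻¹ ∈ (D1 : Dat (SLn 3 F)).S0)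
    (hS' : ∀ x ∈ Cfsg.SU 3 F q, x ∈ (D1 : Dat (SLn 3 F)).S0 → g⁻¹ * x * g ∈ (D1 : Dat (SLn 3 F)).S0) :
    g ∈ (D1 : Dat (SLn 3 F)).B ∨ g * (D1 : Dat (SLn 3 F)).τ ∈ (D1 : Dat (SLn 3 F)).B := by
  obtain ⟨p, r, s, u, m, hd, rfl⟩ := block_of_comm h2 hz
  set g := bk p r s u m hd with hgd
  have hζ0 := ζ_ne_zero h2 hζ
  have hζ1 := ζ_ne_one h2 hζ
  have hxe : ζ * 1 * ζ⁻¹ = 1 := by
    rw [mul_one, mul_inv_cancel₀ hζ0]
  have hxU : dd ζ 1 ζ⁻¹ hxe ∈ Cfsg.SU 3 F q := dd_memU hF hζn (one_pow _) (by rw [inv_pow, hζn, inv_one])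
  have hxA : dd ζ 1 ζ⁻¹ hxe ∈ (D1 : Dat (SLn 3 F)).A := by
    have h4 : ζ ^ 2 ^ 2 = 1 := by
      have : ζ ^ 2 ^ 2 = (ζ * ζ) * (ζ * ζ) := by ring
      rw [this, hζ]
      ring
    refine mem_A1.2 ⟨2, h4, by simp, ?_⟩
    rw [inv_pow, h4, inv_one]
  have hxx : dd ζ 1 ζ⁻¹ hxe * dd ζ 1 ζ⁻¹ hxe = dd (-1 : F) 1 (-1) xx_eq := by
    rw [dd_mul]
    refine dd_congr hζ (by ring) ?_
    have : ζ⁻¹ * ζ⁻¹ = (ζ * ζ)⁻¹ := by
      rw [mul_inv]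
    rw [this, hζ]
    simp
  have hA : g * dd ζ 1 ζ⁻¹ hxe * g⁻¹ ∈ (D1 : Dat (SLn 3 F)).A := by
    refine not_comm_xx h2 hζ (hS _ hxU ((D1 : Dat (SLn 3 F)).A_le hxA)) ?_
    have hX : g⁻¹ * dd ζ 1 ζ⁻¹ hxe * g ∈ (D1 : Dat (SLn 3 F)).S0 := hS' _ hxU ((D1 : Dat (SLn 3 F)).A_le hxA)
    have hXX := (D1 : Dat (SLn 3 F)).sq_mem hX
    have hcm : dd ζ 1 ζ⁻¹ hxe * ((g⁻¹ * dd ζ 1 ζ⁻¹ hxe * g) * (g⁻¹ * dd ζ 1 ζ⁻¹ hxe * g)) =
        ((g⁻¹ * dd ζ 1 ζ⁻¹ hxe * g) * (g⁻¹ * dd ζ 1 ζ⁻¹ hxe * g)) * dd ζ 1 ζ⁻¹ hxe := TT_comm hxA.1 hXX.1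
    rw [← hxx]
    calc g * dd ζ 1 ζ⁻¹ hxe * g⁻¹ * (dd ζ 1 ζ⁻¹ hxe * dd ζ 1 ζ⁻¹ hxe)
        = g * (dd ζ 1 ζ⁻¹ hxe * ((g⁻¹ * dd ζ 1 ζ⁻¹ hxe * g) * (g⁻¹ * dd ζ 1 ζ⁻¹ hxe * g))) * g⁻¹ := by group
      _ = g * (((g⁻¹ * dd ζ 1 ζ⁻¹ hxe * g) * (g⁻¹ * dd ζ 1 ζ⁻¹ hxe * g)) * dd ζ 1 ζ⁻¹ hxe) * g⁻¹ := by rw [hcm]
      _ = dd ζ 1 ζ⁻¹ hxe * dd ζ 1 ζ⁻¹ hxe * (g * dd ζ 1 ζ⁻¹ hxe * g⁻¹) := by group
  obtain ⟨y₁, y₂, y₃, hy, hye⟩ := TT_form hA.1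
  have hgx : g * dd ζ 1 ζ⁻¹ hxe = dd y₁ y₂ y₃ hy * g := by
    rw [← hye]
    group
  rw [hgd, dd, dd, bk_mul, bk_mul] at hgx
  obtain ⟨e1, e2, e3, e4, -⟩ := bk_inj hgx
  simp only [mul_zero, add_zero, zero_mul, zero_add, mul_one] at e1 e2 e3 e4
  by_cases hp : p = 0
  · subst hp
    have hs : s ≠ 0 := by
      rintro rfl
      simp at hd
    have hy2 : y₂ = ζ := by
      have : (y₂ - ζ) * s = 0 := by linear_combination -e3
      exact sub_eq_zero.1 ((mul_eq_zero.1 this).resolve_right hs)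
    subst hy2
    have hu : u = 0 := by
      have : (y₂ - 1) * u = 0 := by linear_combination -e4
      exact (mul_eq_zero.1 this).resolve_left (sub_ne_zero.2 hζ1)
    subst hu
    refine Or.inr ?_
    have e : g * (D1 : Dat (SLn 3 F)).τ = dd r s (-m) (by linear_combination hd) := by
      show g * t1 = _
      rw [hgd, t1, bk_mul, dd]
      exact bk_congr (by ring) (by ring) (by ring) (by ring) (by ring)
    rw [e]
    exact dd_mem _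
  · have hy1 : y₁ = ζ := by
      have : (y₁ - ζ) * p = 0 := by linear_combination -e1
      exact sub_eq_zero.1 ((mul_eq_zero.1 this).resolve_right hp)
    subst hy1
    have hr : r = 0 := by
      have : (y₁ - 1) * r = 0 := by linear_combination -e2
      exact (mul_eq_zero.1 this).resolve_left (sub_ne_zero.2 hζ1)
    subst hr
    have hu : u ≠ 0 := by
      rintro rfl
      simp at hd
    have hy2 : y₂ = 1 := by
      have : (y₂ - 1) * u = 0 := by linear_combination -e4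
      exact sub_eq_zero.1 ((mul_eq_zero.1 this).resolve_right hu)
    subst hy2
    have hs : s = 0 := by
      have : (y₁ - 1) * s = 0 := by linear_combination e3
      exact (mul_eq_zero.1 this).resolve_left (sub_ne_zero.2 hζ1)
    subst hs
    refine Or.inl ?_
    have e : g = dd p u m (by linear_combination hd) := rfl
    rw [e]
    exact dd_mem _

lemma xx_S0 : (⟨dd (-1 : F) 1 (-1) xx_eq, xx_memU hF⟩ : Cfsg.SU 3 F q) ∈ (D1L hF).S0 :=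
  (res_S0 D1 _ (t1_memU hF)).2 ((D1 : Dat (SLn 3 F)).A_le ((mem_A1 (h := xx_eq)).2 ⟨1, by ring, by ring, by ring⟩))

lemma z0L_mem : z0L hF ∈ (D1L hF).S0 := (res_S0 D1 _ (t1_memU hF)).2 (z0_mem h2 hζ)

lemma z0L_center : ∀ s ∈ (D1L hF).S0, s * z0L hF = z0L hF * s := fun s hs =>
  Subtype.ext (z0_center h2 hζ s.1 ((res_S0 D1 _ (t1_memU hF)).1 hs))

lemma cu1L {v : Cfsg.SU 3 F q} (hv : v ∈ (D1L hF).S0) (hv1 : v ≠ 1) (hv2 : v * v = 1)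
    (hvc : ∀ s ∈ (D1L hF).S0, s * v = v * s) : v = z0L hF := by
  apply Subtype.ext
  refine cu1 h2 hζ ((res_S0 D1 _ (t1_memU hF)).1 hv) (fun h => hv1 (Subtype.ext h)) (congrArg Subtype.val hv2) ?_ ?_
  · exact (congrArg Subtype.val (hvc _ (xx_S0 hF h2 hζ hζn))).symm
  · exact (congrArg Subtype.val (hvc _ (D1L hF).τ_mem)).symm

/-- The normalizer in `SU₃`. -/
theorem H1L : ∀ g ∈ Subgroup.normalizer (((D1L hF).S0 : Subgroup (Cfsg.SU 3 F q)) : Set (Cfsg.SU 3 F q)),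
    g ∈ (D1L hF).B ∨ g * (D1L hF).τ ∈ (D1L hF).B := by
  intro g hg
  have hz := (D1L hF).fix_inv (z0L_ne hF h2) (z0L_sq hF) (z0L_mem hF h2 hζ hζn) (z0L_center hF h2 hζ hζn)
    (fun v hv hv1 hv2 hvc => cu1L hF h2 hζ hζn hv hv1 hv2 hvc) hg
  exact H1core hF h2 hζ hζn (congrArg Subtype.val hz) (res_conj D1 _ (t1_memU hF) hg) (res_conj' D1 _ (t1_memU hF) hg)

/-- The conjugating element for `τ`. -/
lemma exists_conj : ∃ k : Cfsg.SU 3 F q, k * z0L hF * k⁻¹ = (D1L hF).τ := by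
  have hζ0 := ζ_ne_zero h2 hζ
  have hζq : ζ ^ q = -ζ := by
    have : ζ ^ q * ζ = 1 := by rw [← pow_succ, hζn]
    linear_combination -ζ * this + ζ ^ q * hζ
  have hw : (1 + ζ) ≠ 0 := by
    intro h0
    have : ζ = -1 := by linear_combination h0
    subst this
    apply h2
    linear_combination hζ
  have hwq : (1 + ζ) ^ q = 1 - ζ := by
    rw [pow_q_add hF, one_pow, hζq]
    ring
  set β := (1 + ζ)⁻¹ with hβ
  have hββ : (1 + ζ) * β = 1 := mul_inv_cancel₀ hw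
  have hβq : β ^ q * (1 - ζ) = 1 := by
    rw [← hwq, ← mul_pow, mul_comm, hββ, one_pow]
  have hN : 2 * (β * β ^ q) = 1 := by
    have e : (1 + ζ) * (1 - ζ) = 2 := by linear_combination -hζ
    calc 2 * (β * β ^ q) = ((1 + ζ) * (1 - ζ)) * (β * β ^ q) := by rw [e]
      _ = ((1 + ζ) * β) * (β ^ q * (1 - ζ)) := by ring
      _ = 1 := by rw [hββ, hβq]; ring
  have hS : 2 * (β * β) * ζ = 1 := by
    have e : (1 + ζ) * (1 + ζ) = 2 * ζ := by linear_combination hζ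
    calc 2 * (β * β) * ζ = ((1 + ζ) * (1 + ζ)) * (β * β) := by rw [e]; ring
      _ = ((1 + ζ) * β) * ((1 + ζ) * β) := by ring
      _ = 1 := by rw [hββ]; ring
  have hd : (β * (-β) - β * β) * (-ζ) = 1 := by linear_combination hS
  have hm : bk β β β (-β) (-ζ) hd ∈ Cfsg.SU 3 F q := by
    refine bk_mem hF ?_ ?_ ?_ ?_
    · linear_combination hN
    · rw [conjQ_neg hF]; ring
    · rw [conjQ_neg hF]; linear_combination hN
    · rw [conjQ_neg hF, hζq]; linear_combination -hζ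
  refine ⟨⟨bk β β β (-β) (-ζ) hd, hm⟩ * ⟨sg, sg_mem⟩, Subtype.ext ?_⟩
  show (bk β β β (-β) (-ζ) hd * sg) * z0 * (bk β β β (-β) (-ζ) hd * sg)⁻¹ = t1
  have e1 : bk β β β (-β) (-ζ) hd * t2 = t1 * bk β β β (-β) (-ζ) hd := by
    rw [t1, t2, bk_mul, bk_mul]
    exact bk_congr (by ring) (by ring) (by ring) (by ring) (by ring)
  have e2 : sg * (z0 : SLn 3 F) = t2 * sg := by
    rw [← mul_inv_eq_iff_eq_mul]
    exact sg_z0
  rw [mul_inv_eq_iff_eq_mul]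
  calc bk β β β (-β) (-ζ) hd * sg * z0 = bk β β β (-β) (-ζ) hd * (sg * z0) := by group
    _ = bk β β β (-β) (-ζ) hd * (t2 * sg) := by rw [e2]
    _ = (bk β β β (-β) (-ζ) hd * t2) * sg := by group
    _ = t1 * bk β β β (-β) (-ζ) hd * sg := by rw [e1]
    _ = t1 * (bk β β β (-β) (-ζ) hd * sg) := by group

/-- Strongly closed subgroups in `SU₃`. -/
theorem D4_1L : ∀ T₀ : Subgroup (Cfsg.SU 3 F q), T₀ ≤ (D1L hF).S0 → T₀ ≠ ⊥ →
    (∀ y ∈ T₀, ∀ g : Cfsg.SU 3 F q, g * y * g⁻¹ ∈ (D1L hF).S0 → g * y * g⁻¹ ∈ T₀) →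
    (D1L hF).S0 ≤ T₀ := by
  intro T₀ hle hne hT
  obtain ⟨v, hvT, hv1, hv2, hvc⟩ := (D1L hF).exists_central hle hne hT
  have hv := cu1L hF h2 hζ hζn (hle hvT) hv1 hv2 hvc
  subst hv
  have hS0 : ∀ {y : Cfsg.SU 3 F q}, y.1 ∈ (D1 : Dat (SLn 3 F)).S0 → y ∈ (D1L hF).S0 := fun hy =>
    (res_S0 D1 _ (t1_memU hF)).2 hy
  have hτT : (D1L hF).τ ∈ T₀ := by
    obtain ⟨k, hk⟩ := exists_conj hF h2 hζ hζn
    have h3 := hT _ hvT k (by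
      rw [hk]
      exact (D1L hF).τ_mem)
    rwa [hk] at h3
  have hE : ∀ (x : F) (hx : x * 1 * x⁻¹ = 1) (hx' : x * x⁻¹ * 1 = 1) (hxn : x ^ (q + 1) = 1)
      (hm : dd x x⁻¹ 1 hx' ∈ Cfsg.SU 3 F q), (∃ e : ℕ, x ^ 2 ^ e = 1) → (⟨dd x x⁻¹ 1 hx', hm⟩ : Cfsg.SU 3 F q) ∈ T₀ := by
    intro x hx hx' hxn hm ⟨e, he⟩
    have hdA : dd x 1 x⁻¹ hx ∈ (D1 : Dat (SLn 3 F)).A := mem_A1.2 ⟨e, he, by simp, by rw [inv_pow, he, inv_one]⟩
    have hdU : dd x 1 x⁻¹ hx ∈ Cfsg.SU 3 F q := dd_memU hF hxn (one_pow _) (by rw [inv_pow, hxn, inv_one])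
    have hdS : (⟨dd x 1 x⁻¹ hx, hdU⟩ : Cfsg.SU 3 F q) ∈ (D1L hF).S0 := hS0 ((D1 : Dat (SLn 3 F)).A_le hdA)
    have h3 := hT _ hτT _ (mul_mem (mul_mem hdS (D1L hF).τ_mem) (inv_mem hdS))
    have h4 := mul_mem h3 hτT
    convert h4 using 1
    apply Subtype.ext
    show dd x x⁻¹ 1 hx' = dd x 1 x⁻¹ hx * t1 * (dd x 1 x⁻¹ hx)⁻¹ * t1
    have e1 : dd x 1 x⁻¹ hx * t1 * (dd x 1 x⁻¹ hx)⁻¹ * t1 = dd x 1 x⁻¹ hx * (t1 * (dd x 1 x⁻¹ hx)⁻¹ * t1) := by group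
    rw [e1, dd_inv, t1_conj, dd_mul]
    exact dd_congr (by simp) (by simp) (by
      have hx0 : x ≠ 0 := by
        rintro rfl
        simp at hx
      simp [hx0])
  have hE' : ∀ (x : F) (hx : x * 1 * x⁻¹ = 1) (hx' : x * x⁻¹ * 1 = 1) (hx'' : 1 * x * x⁻¹ = 1) (hxn : x ^ (q + 1) = 1)
      (hm : dd 1 x x⁻¹ hx'' ∈ Cfsg.SU 3 F q), (∃ e : ℕ, x ^ 2 ^ e = 1) → (⟨dd 1 x x⁻¹ hx'', hm⟩ : Cfsg.SU 3 F q) ∈ T₀ := by
    intro x hx hx' hx'' hxn hm he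
    obtain ⟨e, he⟩ := he
    have hdA : dd 1 x x⁻¹ hx'' ∈ (D1 : Dat (SLn 3 F)).A := mem_A1.2 ⟨e, by simp, he, by rw [inv_pow, he, inv_one]⟩
    have hdU : dd x x⁻¹ 1 hx' ∈ Cfsg.SU 3 F q := dd_memU hF hxn (by rw [inv_pow, hxn, inv_one]) (one_pow _)
    have h3 := hE x hx hx' hxn hdU ⟨e, he⟩
    have e1 : (⟨sg, sg_mem⟩ : Cfsg.SU 3 F q) * ⟨dd x x⁻¹ 1 hx', hdU⟩ * (⟨sg, sg_mem⟩ : Cfsg.SU 3 F q)⁻¹ = ⟨dd 1 x x⁻¹ hx'', hm⟩ := by
      apply Subtype.ext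
      show sg * dd x x⁻¹ 1 hx' * sg⁻¹ = dd 1 x x⁻¹ hx''
      rw [dd, dd]
      exact sg_conj _ _ _ _ _
    have h4 := hT _ h3 ⟨sg, sg_mem⟩ (by
      rw [e1]
      exact hS0 ((D1 : Dat (SLn 3 F)).A_le hdA))
    rwa [e1] at h4
  have hA : (D1L hF).A ≤ T₀ := by
    intro d hd
    have hd1 := (res_A D1 _ (t1_memU hF)).1 hd
    obtain ⟨a, b, c, h, e⟩ := TT_form hd1.1
    rw [e] at hd1
    have hmem : dd a b c h ∈ Cfsg.SU 3 F q := e ▸ d.2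
    obtain ⟨na, nb, nc⟩ := dd_uni hF hmem
    obtain ⟨e', h3, h4, h5⟩ := mem_A1.1 hd1
    have ha : a ≠ 0 := by
      rintro rfl
      simp at h
    have hb : b ≠ 0 := by
      rintro rfl
      simp at h
    have hab : a * b ≠ 0 := mul_ne_zero ha hb
    have hc : c = (a * b)⁻¹ := eq_inv_of_mul_eq_one_right h
    have nab : (a * b) ^ (q + 1) = 1 := by rw [mul_pow, na, nb, one_mul]
    have hp1 : a * a⁻¹ * 1 = 1 := by field_simp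
    have hp2 : 1 * (a * b) * (a * b)⁻¹ = 1 := by field_simp
    have hU1 : dd a a⁻¹ 1 hp1 ∈ Cfsg.SU 3 F q := dd_memU hF na (by rw [inv_pow, na, inv_one]) (one_pow _)
    have hU2 : dd 1 (a * b) (a * b)⁻¹ hp2 ∈ Cfsg.SU 3 F q :=
      dd_memU hF (one_pow _) nab (by rw [inv_pow, nab, inv_one])
    have e1 := hE a (by field_simp) (by field_simp) na hU1 ⟨e', h3⟩
    have e2 := hE' (a * b) (by field_simp) (by field_simp) (by field_simp) nab hU2 ⟨e', by rw [mul_pow, h3, h4, one_mul]⟩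
    have e3 := mul_mem e1 e2
    convert e3 using 1
    apply Subtype.ext
    show d.1 = dd a a⁻¹ 1 hp1 * dd 1 (a * b) (a * b)⁻¹ hp2
    rw [e, dd_mul]
    exact dd_congr (by ring) (by field_simp) (by rw [hc]; ring)
  intro y hy
  rcases hy with hy | hy
  · exact hA hy
  · have e : y = (y * (D1L hF).τ) * (D1L hF).τ := (D1L hF).eq_mul_τ
    rw [e]
    exact mul_mem (hA hy) hτT

end Cfsg.Agent.Lib.PSU3Two
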