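/-
`SU₃(q)`, second case: the square roots of `-1` lie in the subfield.
-/
import Cfsg.Agent.Lib.PSU3Two.Case1

set_option autoImplicit false

namespace Cfsg.Agent.Lib.PSU3Two

open Cfsg Matrix Cfsg.Agent.Lib.SLn Cfsg.Agent.Lib.Fusion Cfsg.Agent.Lib.PSL3Two Cfsg.Agent.Lib.Classical

open Cfsg.Agent.Lib.GLFlag (SLn)

variable {F : Type*} [Field F] [Fintype F] {q : ℕ}

lemma cc_memU (hF : Fintype.card F = q ^ 2) {x y c : F} {h : (x * x + y * y) * c = 1} (hx : x ^ q = c * x) (hy : y ^ q = c * y)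
    (hc : c ^ (q + 1) = 1) : cc x y c h ∈ Cfsg.SU 3 F q := by
  refine bk_mem hF ?_ ?_ ?_ ?_
  · rw [conjQ_neg hF, hx, hy]; linear_combination h
  · rw [hx, hy]; ring
  · rw [hx, hy]; linear_combination h
  · rw [← pow_succ', hc]

lemma cc_uni (hF : Fintype.card F = q ^ 2) {x y c : F} {h : (x * x + y * y) * c = 1} (hm : cc x y c h ∈ Cfsg.SU 3 F q) :
    x ^ q = c * x ∧ y ^ q = c * y ∧ c ^ (q + 1) = 1 := by
  obtain ⟨h1, h2, -, h4⟩ := bk_uni hF hm
  rw [conjQ_neg hF] at h1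
  refine ⟨?_, ?_, ?_⟩
  · linear_combination (-x ^ q) * h + c * x * h1 - c * y * h2
  · linear_combination (-y ^ q) * h + c * y * h1 + c * x * h2
  · rw [pow_succ']; linear_combination h4

lemma ii_memU (hF : Fintype.card F = q ^ 2) : (ii : SLn 3 F) ∈ Cfsg.SU 3 F q := by
  have hq := one_lt_q hF
  refine cc_memU hF ?_ ?_ ?_
  · rw [zero_pow (by omega)]; ring
  · rw [one_pow]; ring
  · rw [one_pow]

/-- The data for `SU₃`. -/
def D2L (hF : Fintype.card F = q ^ 2) (h2 : (2 : F) ≠ 0) : Dat (Cfsg.SU 3 F q) := res (D2 h2) _ (t2_memU hF)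

/-- Uniqueness of the central involution. -/
lemma cu2 (h2 : (2 : F) ≠ 0) {v : SLn 3 F} (hv : v ∈ (D2 h2).S0) (hv1 : v ≠ 1) (hv2 : v * v = 1)
    (hi : ii * v = v * ii) (ht : t2 * v = v * t2) : v = z0 := by
  have hvA := not_comm_ii h2 hv hi.symm
  obtain ⟨x, y, c, h, rfl⟩ := hvA.1
  have h3 : t2 * cc x y c h * t2 = cc x y c h := by
    rw [ht, mul_assoc, t2_sq, mul_one]
  rw [t2_conj] at h3
  have hy0 : y = 0 := by
    have h5 := (cc_inj h3).2.1
    have : (2 : F) * y = 0 := by linear_combination -h5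
    exact (mul_eq_zero.1 this).resolve_left h2
  subst hy0
  rw [cc_mul, ← cc_one] at hv2
  obtain ⟨h5, -, -⟩ := cc_inj hv2
  have h6 : x * x = 1 := by linear_combination h5
  have hc1 : c = 1 := by
    have : (x * x + 0 * 0) * c = 1 := h
    rw [h6] at this
    linear_combination this
  subst hc1
  have h8 : (x - 1) * (x + 1) = 0 := by linear_combination h6
  rcases mul_eq_zero.1 h8 with h9 | h9
  · exfalso
    apply hv1
    have : x = 1 := sub_eq_zero.1 h9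
    subst this
    exact cc_one
  · have : x = -1 := by linear_combination h9
    subst this
    exact z0_eq_cc.symm

variable (hF : Fintype.card F = q ^ 2) (h2 : (2 : F) ≠ 0) (hn : ∀ a : F, a * a = -1 → a ^ (q + 1) ≠ 1) {ι : F}
  (hι : ι * ι = -1) (hιq : ι ^ q = ι) (hqo : Odd q)

omit [Fintype F] in
include hn in
lemma two_part' {t : F} (e : ℕ) : t ^ 2 ^ e = 1 → t ^ (q + 1) = 1 → t = 1 ∨ t = -1 := by
  induction e generalizing t with
  | zero =>
    intro h _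
    left
    simpa using h
  | succ e ih =>
    intro h hq
    have h3 : (t * t) ^ 2 ^ e = 1 := by
      rw [← h, pow_succ', pow_mul]
      ring
    have h3' : (t * t) ^ (q + 1) = 1 := by
      rw [mul_pow, hq, one_mul]
    rcases ih h3 h3' with h4 | h4
    · have h5 : (t - 1) * (t + 1) = 0 := by linear_combination h4
      rcases mul_eq_zero.1 h5 with h6 | h6
      · exact Or.inl (sub_eq_zero.1 h6)
      · exact Or.inr (by linear_combination h6)
    · exact absurd hq (hn t h4)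

include hF hqo in
/-- Square roots of elements of the subfield. -/
lemma exists_sqrt {μ : F} (h0 : μ ≠ 0) (hμ : μ ^ q = μ) : ∃ x : F, x * x = μ := by
  obtain ⟨s, -, hs⟩ := exists_norm_eq hF h0 hμ
  obtain ⟨k, hk⟩ := hqo
  refine ⟨s ^ (k + 1), ?_⟩
  rw [← hs, hk, ← pow_add]
  congr 1
  ring

omit [Fintype F] in
lemma two_q (hq : 1 < q) (hF' : ∀ a b : F, (a + b) ^ q = a ^ q + b ^ q) : (2 : F) ^ q = 2 := by
  have := hF' 1 1
  rw [one_pow] at this
  rw [show (2 : F) = 1 + 1 by ring]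
  exact this

include hF hι hιq hqo h2 in
/-- An eighth root of unity in the torus. -/
lemma exists_e8 : ∃ (x y c : F) (h : (x * x + y * y) * c = 1), cc x y c h ∈ Cfsg.SU 3 F q ∧ cc x y c h * cc x y c h = ii := by
  have hq := one_lt_q hF
  have h2q : (2 : F) ^ q = 2 := two_q hq (pow_q_add hF)
  have hinv : (2 : F)⁻¹ ^ q = 2⁻¹ := by rw [inv_pow, h2q]
  obtain ⟨x₀, hx₀⟩ := exists_sqrt hF hqo (inv_ne_zero h2) hinv
  have h2x : 2 * (x₀ * x₀) = 1 := by
    rw [hx₀]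
    exact mul_inv_cancel₀ h2
  have hq2 : (x₀ ^ q - x₀) * (x₀ ^ q + x₀) = 0 := by
    have : x₀ ^ q * x₀ ^ q = x₀ * x₀ := by rw [← mul_pow, hx₀, hinv]
    linear_combination this
  rcases mul_eq_zero.1 hq2 with h3 | h3
  · have h4 : x₀ ^ q = x₀ := sub_eq_zero.1 h3
    have hd : (x₀ * x₀ + x₀ * x₀) * 1 = 1 := by linear_combination h2x
    refine ⟨x₀, x₀, 1, hd, cc_memU hF (by rw [h4]; ring) (by rw [h4]; ring) (one_pow _), ?_⟩
    rw [cc_mul, ii]
    exact cc_congr (by ring) (by linear_combination h2x) (by ring)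
  · have h4 : x₀ ^ q = -x₀ := by linear_combination h3
    have hd : ((ι * x₀) * (ι * x₀) + (-(ι * x₀)) * (-(ι * x₀))) * (-1) = 1 := by
      linear_combination (-2 * (x₀ * x₀)) * hι + h2x
    refine ⟨ι * x₀, -(ι * x₀), -1, hd, cc_memU hF ?_ ?_ (neg_one_norm hF), ?_⟩
    · rw [mul_pow, hιq, h4]; ring
    · rw [conjQ_neg hF, mul_pow, hιq, h4]; ring
    · rw [cc_mul, ii]
      exact cc_congr (by ring) (by linear_combination (-2 * (x₀ * x₀)) * hι + h2x) (by ring)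

include hF h2 hn hι hιq hqo in
/-- The normalizer, at the level of matrices. -/
theorem H2core {g : SLn 3 F} (hgU : g ∈ Cfsg.SU 3 F q) (hz : g * z0 = z0 * g)
    (hS : ∀ x ∈ Cfsg.SU 3 F q, x ∈ (D2 h2).S0 → g * x * g⁻¹ ∈ (D2 h2).S0) :
    g ∈ (D2 h2).B ∨ g * (D2 h2).τ ∈ (D2 h2).B := by
  obtain ⟨p, r, s, u, m, hd, rfl⟩ := block_of_comm h2 hz
  set g := bk p r s u m hd with hgd
  obtain ⟨x₀, y₀, c₀, h₀, heU, he⟩ := exists_e8 hF h2 hι hιq hqo
  have heA : cc x₀ y₀ c₀ h₀ ∈ (D2 h2).A := by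
    refine ⟨cc_mem _, 3, ?_⟩
    have : cc x₀ y₀ c₀ h₀ ^ 2 ^ 3 = (cc x₀ y₀ c₀ h₀ * cc x₀ y₀ c₀ h₀) ^ 2 ^ 2 := by
      rw [← pow_two, ← pow_mul]
      norm_num
    rw [this, he]
    exact ii_pow
  have hv : g * ii * g⁻¹ * (g * ii * g⁻¹) = z0 := by
    calc g * ii * g⁻¹ * (g * ii * g⁻¹) = g * (ii * ii) * g⁻¹ := by group
      _ = g * z0 * g⁻¹ := by rw [ii_sq]
      _ = z0 * g * g⁻¹ := by rw [hz]
      _ = z0 := by group
  have hy : g * cc x₀ y₀ c₀ h₀ * g⁻¹ * (g * cc x₀ y₀ c₀ h₀ * g⁻¹) = g * ii * g⁻¹ := by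
    rw [← he]
    group
  have hyS := hS _ heU ((D2 h2).A_le heA)
  have hyU : g * cc x₀ y₀ c₀ h₀ * g⁻¹ ∈ Cfsg.SU 3 F q := mul_mem (mul_mem hgU heU) (inv_mem hgU)
  have hyA : g * cc x₀ y₀ c₀ h₀ * g⁻¹ ∈ (D2 h2).A := by
    rcases hyS with hyS | hyS
    · exact hyS
    · exfalso
      obtain ⟨x, y, c, h, e⟩ := hyS.1
      have e2 : g * cc x₀ y₀ c₀ h₀ * g⁻¹ = cc x y c h * t2 := by
        rw [← e]
        exact (D2 h2).eq_mul_τ
      have hbU : cc x y c h ∈ Cfsg.SU 3 F q := by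
        rw [← e]
        exact mul_mem hyU (t2_memU hF)
      obtain ⟨-, -, hc⟩ := cc_uni hF hbU
      have e3 : g * ii * g⁻¹ = cc (x * x + y * y) 0 (c * c) (by linear_combination ((x * x + y * y) * c + 1) * h) := by
        rw [← hy, e2]
        calc cc x y c h * t2 * (cc x y c h * t2) = cc x y c h * (t2 * cc x y c h * t2) := by group
          _ = _ := by
            rw [t2_conj, cc_mul]
            exact cc_congr (by ring) (by ring) rfl
      rw [e3, cc_mul, z0_eq_cc] at hv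
      have e4 := (cc_inj hv).1
      refine hn (x * x + y * y) (by linear_combination e4) ?_
      have h5 : ((x * x + y * y) * c) ^ (q + 1) = 1 := by rw [h, one_pow]
      rw [mul_pow, hc, mul_one] at h5
      exact h5
  obtain ⟨x, y, c, h, e⟩ := hyA.1
  have hvForm : ∃ (X Y C : F) (hh : (X * X + Y * Y) * C = 1), g * ii * g⁻¹ = cc X Y C hh := by
    refine ⟨x * x - y * y, x * y + y * x, c * c, by linear_combination ((x * x + y * y) * c + 1) * h, ?_⟩
    rw [← hy, e, cc_mul]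
  obtain ⟨X, Y, C, hh, e3⟩ := hvForm
  have hvU : cc X Y C hh ∈ Cfsg.SU 3 F q := by
    rw [← e3]
    exact mul_mem (mul_mem hgU (ii_memU hF)) (inv_mem hgU)
  obtain ⟨hXq, -, -⟩ := cc_uni hF hvU
  have hvv := hv
  rw [e3, cc_mul, z0_eq_cc] at hvv
  obtain ⟨e4, e5, -⟩ := cc_inj hvv
  have hXY : X * Y = 0 := by
    have : (2 : F) * (X * Y) = 0 := by linear_combination e5
    exact (mul_eq_zero.1 this).resolve_left h2
  have hX0 : X = 0 := by
    rcases mul_eq_zero.1 hXY with h3 | h3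
    · exact h3
    · exfalso
      rw [h3] at e4 hh
      have hXX : X * X = -1 := by linear_combination e4
      have hC : C = -1 := by
        have : (X * X + 0 * 0) * C = 1 := hh
        rw [hXX] at this
        linear_combination -this
      rw [hC] at hXq
      refine hn X hXX ?_
      rw [pow_succ, hXq]
      linear_combination -hXX
  subst hX0
  have hYY : Y * Y = 1 := by linear_combination -e4
  have hC : C = 1 := by
    linear_combination hh - C * hYY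
  subst hC
  have hgi : g * ii = cc 0 Y 1 hh * g := by
    rw [← e3]
    group
  rw [hgd, ii, cc, cc, bk_mul, bk_mul] at hgi
  obtain ⟨e1', e2', e3', e4', -⟩ := bk_inj hgi
  have hY2 : (Y - 1) * (Y + 1) = 0 := by linear_combination hYY
  rcases mul_eq_zero.1 hY2 with h3 | h3
  · have hY1 : Y = 1 := sub_eq_zero.1 h3
    subst hY1
    have hsr : s = -r := by linear_combination -e1'
    have hup : u = p := by linear_combination -e2'
    subst hsr hup
    refine Or.inl ?_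
    have hd' : (u * u + r * r) * m = 1 := by linear_combination hd
    exact ⟨u, r, m, hd', rfl⟩
  · have hY1 : Y = -1 := by linear_combination h3
    subst hY1
    have hsr : s = r := by linear_combination e1'
    have hup : u = -p := by linear_combination e2'
    subst hsr hup
    refine Or.inr ?_
    have hd' : (p * p + (-s) * (-s)) * (-m) = 1 := by linear_combination hd
    refine ⟨p, -s, -m, hd', ?_⟩
    show g * t2 = _
    rw [hgd, t2, bk_mul, cc]
    exact bk_congr (by ring) (by ring) (by ring) (by ring) (by ring)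

include hF h2

lemma ii_S0 : (⟨ii, ii_memU hF⟩ : Cfsg.SU 3 F q) ∈ (D2L hF h2).S0 :=
  (res_S0 (D2 h2) _ (t2_memU hF)).2 ((D2 h2).A_le (ii_mem h2))

lemma z0L_mem2 : z0L hF ∈ (D2L hF h2).S0 := (res_S0 (D2 h2) _ (t2_memU hF)).2 (z0_mem2 h2)

lemma z0L_center2 : ∀ s ∈ (D2L hF h2).S0, s * z0L hF = z0L hF * s := fun s hs =>
  Subtype.ext (z0_center2 h2 s.1 ((res_S0 (D2 h2) _ (t2_memU hF)).1 hs))

lemma cu2L {v : Cfsg.SU 3 F q} (hv : v ∈ (D2L hF h2).S0) (hv1 : v ≠ 1) (hv2 : v * v = 1)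
    (hvc : ∀ s ∈ (D2L hF h2).S0, s * v = v * s) : v = z0L hF := by
  apply Subtype.ext
  refine cu2 h2 ((res_S0 (D2 h2) _ (t2_memU hF)).1 hv) (fun h => hv1 (Subtype.ext h)) (congrArg Subtype.val hv2) ?_ ?_
  · exact congrArg Subtype.val (hvc _ (ii_S0 hF h2))
  · exact congrArg Subtype.val (hvc _ (D2L hF h2).τ_mem)

include hn hι hιq hqo in
/-- The normalizer in `SU₃`. -/
theorem H2L : ∀ g ∈ Subgroup.normalizer (((D2L hF h2).S0 : Subgroup (Cfsg.SU 3 F q)) : Set (Cfsg.SU 3 F q)),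
    g ∈ (D2L hF h2).B ∨ g * (D2L hF h2).τ ∈ (D2L hF h2).B := by
  intro g hg
  have hz := (D2L hF h2).fix_inv (z0L_ne hF h2) (z0L_sq hF) (z0L_mem2 hF h2) (z0L_center2 hF h2)
    (fun v hv hv1 hv2 hvc => cu2L hF h2 hv hv1 hv2 hvc) hg
  exact H2core hF h2 hn hι hιq hqo g.2 (congrArg Subtype.val hz) (res_conj (D2 h2) _ (t2_memU hF) hg)

/-- Elements of norm one. -/
lemma norm_one_memL {T₀ : Subgroup (Cfsg.SU 3 F q)}
    (hT : ∀ y ∈ T₀, ∀ g : Cfsg.SU 3 F q, g * y * g⁻¹ ∈ (D2L hF h2).S0 → g * y * g⁻¹ ∈ T₀)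
    (hzT : z0L hF ∈ T₀) (hτT : (D2L hF h2).τ ∈ T₀) {x y : F} (h : (x * x + y * y) * 1 = 1)
    (hU : cc x y 1 h ∈ Cfsg.SU 3 F q)
    (ha : cc x y 1 h ∈ (D2 h2).A) : (⟨cc x y 1 h, hU⟩ : Cfsg.SU 3 F q) ∈ T₀ := by
  have hq := one_lt_q hF
  obtain ⟨hxq, hyq, -⟩ := cc_uni hF hU
  rw [one_mul] at hxq hyq
  by_cases hx : x = -1
  · subst hx
    have hy : y = 0 := by
      have : y * y = 0 := by linear_combination h
      exact mul_self_eq_zero.1 this
    subst hy
    convert hzT using 1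
    exact Subtype.ext z0_eq_cc.symm
  · have hx1 : (1 + x) ≠ 0 := fun h0 => hx (by linear_combination h0)
    have hNe : (1 + x) * (1 + x) + y * y = 2 * (1 + x) := by linear_combination h
    have hN : (1 + x) * (1 + x) + y * y ≠ 0 := by
      rw [hNe]
      exact mul_ne_zero h2 hx1
    have hNq : (((1 + x) * (1 + x) + y * y)⁻¹) ^ q = ((1 + x) * (1 + x) + y * y)⁻¹ := by
      rw [inv_pow, pow_q_add hF, mul_pow, mul_pow, pow_q_add hF, one_pow, hxq, hyq]
    obtain ⟨l, hl0, hl⟩ := exists_norm_eq hF (inv_ne_zero hN) hNq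
    have hlq : l ^ q * l = ((1 + x) * (1 + x) + y * y)⁻¹ := by rw [← pow_succ, hl]
    have hlN : l ^ q * l * ((1 + x) * (1 + x) + y * y) = 1 := by
      rw [hlq]
      exact inv_mul_cancel₀ hN
    have hll : l⁻¹ * l = 1 := inv_mul_cancel₀ hl0
    have hd : ((l * (1 + x)) * (l * (1 + x)) + (l * y) * (l * y)) * (l ^ q * l⁻¹) = 1 := by
      linear_combination (l ^ q * l * ((1 + x) * (1 + x) + y * y)) * hll + hlN
    have hlqq : (l ^ q) ^ q = l := pow_q_pow_q hF l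
    have huU : cc (l * (1 + x)) (l * y) (l ^ q * l⁻¹) hd ∈ Cfsg.SU 3 F q := by
      refine cc_memU hF ?_ ?_ ?_
      · rw [mul_pow, pow_q_add hF, one_pow, hxq]
        linear_combination (-(l ^ q * (1 + x))) * hll
      · rw [mul_pow, hyq]
        linear_combination (-(l ^ q * y)) * hll
      · have hl1 : (l ^ q * l⁻¹) ^ q = l * (l ^ q)⁻¹ := by
          rw [mul_pow, hlqq, inv_pow]
        have hlq0 : l ^ q ≠ 0 := pow_ne_zero _ hl0
        rw [pow_succ, hl1]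
        field_simp
    have hub : (⟨cc (l * (1 + x)) (l * y) (l ^ q * l⁻¹) hd, huU⟩ : Cfsg.SU 3 F q) ∈ (D2L hF h2).B := cc_mem hd
    refine (D2L hF h2).comm_mem hT hτT hub ((res_A (D2 h2) _ (t2_memU hF)).2 ha) ?_
    apply Subtype.ext
    show cc x y 1 h = cc (l * (1 + x)) (l * y) (l ^ q * l⁻¹) hd * t2 * (cc (l * (1 + x)) (l * y) (l ^ q * l⁻¹) hd)⁻¹ * t2
    have hτinv : (t2 : SLn 3 F)⁻¹ = t2 := (D2 h2).inv_τ
    have e1 : cc (l * (1 + x)) (l * y) (l ^ q * l⁻¹) hd * t2 * (cc (l * (1 + x)) (l * y) (l ^ q * l⁻¹) hd)⁻¹ * t2 =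
        cc (l * (1 + x)) (l * y) (l ^ q * l⁻¹) hd * (t2 * cc (l * (1 + x)) (l * y) (l ^ q * l⁻¹) hd * t2)⁻¹ := by
      rw [_root_.mul_inv_rev, _root_.mul_inv_rev, hτinv]
      group
    rw [e1, eq_mul_inv_iff_mul_eq, t2_conj, cc_mul]
    exact cc_congr (by linear_combination l * h) (by ring) (by ring)

include hn in
/-- Strongly closed subgroups in `SU₃`. -/
theorem D4_2L : ∀ T₀ : Subgroup (Cfsg.SU 3 F q), T₀ ≤ (D2L hF h2).S0 → T₀ ≠ ⊥ →
    (∀ y ∈ T₀, ∀ g : Cfsg.SU 3 F q, g * y * g⁻¹ ∈ (D2L hF h2).S0 → g * y * g⁻¹ ∈ T₀) →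
    (D2L hF h2).S0 ≤ T₀ := by
  intro T₀ hle hne hT
  have hq := one_lt_q hF
  obtain ⟨v, hvT, hv1, hv2, hvc⟩ := (D2L hF h2).exists_central hle hne hT
  have hv := cu2L hF h2 (hle hvT) hv1 hv2 hvc
  subst hv
  have hτT : (D2L hF h2).τ ∈ T₀ := by
    have e : (⟨sg, sg_mem⟩ : Cfsg.SU 3 F q) * z0L hF * (⟨sg, sg_mem⟩ : Cfsg.SU 3 F q)⁻¹ = (D2L hF h2).τ :=
      Subtype.ext sg_z0
    have h3 := hT _ hvT ⟨sg, sg_mem⟩ (by
      rw [e]
      exact (D2L hF h2).τ_mem)
    rwa [e] at h3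
  have hiiT : (⟨ii, ii_memU hF⟩ : Cfsg.SU 3 F q) ∈ T₀ :=
    norm_one_memL hF h2 hT hvT hτT (by ring) (ii_memU hF) (ii_mem h2)
  have hA : (D2L hF h2).A ≤ T₀ := by
    intro a ha
    have ha1 := (res_A (D2 h2) _ (t2_memU hF)).1 ha
    obtain ⟨⟨x, y, c, h, eq⟩, e, he⟩ := ha1
    have hmem : cc x y c h ∈ Cfsg.SU 3 F q := eq ▸ a.2
    obtain ⟨hxq, hyq, hcn⟩ := cc_uni hF hmem
    rw [eq] at he
    have hc : c ^ 2 ^ e = 1 := by
      obtain ⟨x', y', h', e'⟩ := cc_pow_c h (2 ^ e)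
      rw [e', ← cc_one] at he
      exact (cc_inj he).2.2
    have hav : a = ⟨cc x y c h, hmem⟩ := Subtype.ext eq
    rcases two_part' hn e hc hcn with hc1 | hc1
    · subst hc1
      rw [hav]
      exact norm_one_memL hF h2 hT hvT hτT h hmem ⟨cc_mem _, e, he⟩
    · subst hc1
      have hN : x * x + y * y = -1 := by linear_combination -h
      have h2q : (2 : F) ^ q = 2 := two_q hq (pow_q_add hF)
      have hinv : (2 : F)⁻¹ ^ q = 2⁻¹ := by rw [inv_pow, h2q]
      obtain ⟨κ, hκ0, hκ⟩ := exists_norm_eq hF (inv_ne_zero h2) hinv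
      have hκ2 : 2 * (κ * κ ^ q) = 1 := by
        rw [← pow_succ', hκ]
        exact mul_inv_cancel₀ h2
      have h2κ : 2 * (κ * κ) ≠ 0 := mul_ne_zero h2 (mul_ne_zero hκ0 hκ0)
      have hmm : (2 * (κ * κ)) * (2 * (κ * κ))⁻¹ = 1 := mul_inv_cancel₀ h2κ
      have hdet : ((κ * x) * (-(κ * x)) - (κ * (1 - y)) * (-(κ * (1 + y)))) * (2 * (κ * κ))⁻¹ = 1 := by
        linear_combination (-(κ * κ) * (2 * (κ * κ))⁻¹) * hN + hmm
      have hxq' : x ^ q = -x := by rw [hxq]; ring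
      have hyq' : y ^ q = -y := by rw [hyq]; ring
      have h1yq : (1 - y) ^ q = 1 + y := by
        rw [sub_eq_add_neg, pow_q_add hF, one_pow, conjQ_neg hF, hyq']
        ring
      have h1yq' : (1 + y) ^ q = 1 - y := by
        rw [pow_q_add hF, one_pow, hyq']
        ring
      have hhU : bk (κ * x) (κ * (1 - y)) (-(κ * (1 + y))) (-(κ * x)) (2 * (κ * κ))⁻¹ hdet ∈ Cfsg.SU 3 F q := by
        refine bk_mem hF ?_ ?_ ?_ ?_
        · simp only [conjQ_neg hF, mul_pow, hxq', h1yq']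
          linear_combination (-(κ * κ ^ q)) * hN + hκ2
        · simp only [conjQ_neg hF, mul_pow, hxq', h1yq]
          ring
        · simp only [conjQ_neg hF, mul_pow, hxq', h1yq]
          linear_combination (-(κ * κ ^ q)) * hN + hκ2
        · have e0 : ((2 * (κ * κ))⁻¹) ^ q = (2 * (κ ^ q * κ ^ q))⁻¹ := by
            rw [inv_pow, mul_pow, mul_pow, h2q]
          rw [e0, ← mul_inv]
          have e1 : 2 * (κ * κ) * (2 * (κ ^ q * κ ^ q)) = (2 * (κ * κ ^ q)) * (2 * (κ * κ ^ q)) := by ring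
          rw [e1, hκ2]
          simp
      have hb : (x * (-x) - (-y) * (-y)) * 1 = 1 := by linear_combination -hN
      have e1 : bk (κ * x) (κ * (1 - y)) (-(κ * (1 + y))) (-(κ * x)) (2 * (κ * κ))⁻¹ hdet * ii =
          bk x (-y) (-y) (-x) 1 hb * bk (κ * x) (κ * (1 - y)) (-(κ * (1 + y))) (-(κ * x)) (2 * (κ * κ))⁻¹ hdet := by
        rw [ii, cc, bk_mul, bk_mul]
        exact bk_congr (by linear_combination (-κ) * hN) (by ring) (by ring) (by linear_combination (-κ) * hN) (by ring)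
      have e3 : cc x y (-1) h * t2 = bk x (-y) (-y) (-x) 1 hb := by
        rw [cc, t2, bk_mul]
        exact bk_congr (by ring) (by ring) (by ring) (by ring) (by ring)
      have e2 : (⟨_, hhU⟩ : Cfsg.SU 3 F q) * ⟨ii, ii_memU hF⟩ * (⟨_, hhU⟩ : Cfsg.SU 3 F q)⁻¹ = a * (D2L hF h2).τ := by
        apply Subtype.ext
        show bk (κ * x) (κ * (1 - y)) (-(κ * (1 + y))) (-(κ * x)) (2 * (κ * κ))⁻¹ hdet * ii *
          (bk (κ * x) (κ * (1 - y)) (-(κ * (1 + y))) (-(κ * x)) (2 * (κ * κ))⁻¹ hdet)⁻¹ = a.1 * t2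
        rw [mul_inv_eq_iff_eq_mul, eq, e3]
        exact e1
      have hbS : a * (D2L hF h2).τ ∈ (D2L hF h2).S0 := Or.inr (by
        rw [mul_assoc, (D2L hF h2).hτ, mul_one]
        exact ha)
      have h3 := hT _ hiiT ⟨_, hhU⟩ (by
        rw [e2]
        exact hbS)
      rw [e2] at h3
      have h4 := mul_mem h3 hτT
      rwa [mul_assoc, (D2L hF h2).hτ, mul_one] at h4
  intro y hy
  rcases hy with hy | hy
  · exact hA hy
  · have e : y = (y * (D2L hF h2).τ) * (D2L hF h2).τ := (D2L hF h2).eq_mul_τ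
    rw [e]
    exact mul_mem (hA hy) hτT

end Cfsg.Agent.Lib.PSU3Two
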