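/-
The `2`-fusion system of `PSU₃(q)`, `q` odd, is simple.
-/
import Cfsg.Agent.Lib.PSU3Two.Case2

set_option autoImplicit false

namespace Cfsg.Agent.Lib.PSU3Two

open Cfsg Matrix Cfsg.Agent.Lib.SLn Cfsg.Agent.Lib.Fusion Cfsg.Agent.Lib.PSL3Two Cfsg.Agent.Lib.Classical

open Cfsg.Agent.Lib.GLFlag (SLn)

variable {F : Type*} [Field F] [Fintype F] {q : ℕ}

lemma two_ne' (hF : Fintype.card F = q ^ 2) (hodd : q % 2 = 1) : (2 : F) ≠ 0 := by
  intro h
  haveI : CharP F 2 := CharTwo.of_one_ne_zero_of_two_eq_zero one_ne_zero h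
  have h1 : ringChar F = 2 := ringChar.eq F 2
  have h3 := FiniteField.even_card_of_char_two h1
  rw [hF, Nat.pow_mod, hodd] at h3
  omega

theorem psu3_simple (hF : Fintype.card F = q ^ 2) (hodd : q % 2 = 1) (S : Sylow 2 (Cfsg.PSU 3 F q)) :
    (Cfsg.groupFusionSystem (S : Subgroup (Cfsg.PSU 3 F q))).IsSimple 2 := by
  have h2 := two_ne' hF hodd
  have hqo : Odd q := Nat.odd_iff.2 hodd
  let Θ₀ : Cfsg.SU 3 F q →* Cfsg.PSU 3 F q := QuotientGroup.mk' _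
  have hs₀ : Function.Surjective Θ₀ := QuotientGroup.mk'_surjective _
  have hk₀ : ∀ z ∈ Θ₀.ker, z ∈ Subgroup.center (Cfsg.SU 3 F q) ∧ ∃ o : ℕ, Odd o ∧ z ^ o = 1 := by
    intro z hz
    have hz' : z ∈ Subgroup.center (Cfsg.SU 3 F q) := by
      have h1 : Θ₀.ker = Subgroup.center (Cfsg.SU 3 F q) := QuotientGroup.ker_mk' _
      rwa [h1] at hz
    refine ⟨hz', 3, by decide, ?_⟩
    obtain ⟨c, hc⟩ := center_scalar hF z hz'
    have hc' : ((z : Matrix.SpecialLinearGroup (Fin 3) F) : Matrix (Fin 3) (Fin 3) F) = c • (1 : Matrix (Fin 3) (Fin 3) F) :=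
      hc.resolve_right (by decide)
    have hd := z.1.2
    rw [hc', Matrix.det_smul, Matrix.det_one, mul_one, Fintype.card_fin] at hd
    apply Subtype.ext
    apply Subtype.ext
    show ((z : Matrix.SpecialLinearGroup (Fin 3) F) : Matrix (Fin 3) (Fin 3) F) ^ 3 = 1
    rw [hc', smul_pow, one_pow, hd, one_smul]
  by_cases hs : ∃ ζ : F, ζ * ζ = -1 ∧ ζ ^ (q + 1) = 1
  · obtain ⟨ζ, hζ, hζn⟩ := hs
    refine simple_final Θ₀ hs₀ hk₀ (D1L hF) (H1L hF h2 hζ hζn) ?_ (D4_1L hF h2 hζ hζn) S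
    intro h
    have h3 : (D1L hF).τ ∈ (⊥ : Subgroup (Cfsg.SU 3 F q)) := h ▸ (D1L hF).τ_mem
    rw [Subgroup.mem_bot] at h3
    apply (D1L hF).hτn
    rw [h3]
    exact one_mem _
  · have hn : ∀ a : F, a * a = -1 → a ^ (q + 1) ≠ 1 := fun a ha hb => hs ⟨a, ha, hb⟩
    have hq1 : (-1 : F) ^ q = -1 := neg_one_q hF
    obtain ⟨ι, hι⟩ := exists_sqrt hF hqo (neg_ne_zero.2 one_ne_zero) hq1
    have hιq : ι ^ q = ι := by
      have h3 : (ι ^ q - ι) * (ι ^ q + ι) = 0 := by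
        have : ι ^ q * ι ^ q = ι * ι := by rw [← mul_pow, hι, hq1]
        linear_combination this
      rcases mul_eq_zero.1 h3 with h4 | h4
      · exact sub_eq_zero.1 h4
      · exfalso
        refine hn ι hι ?_
        have h5 : ι ^ q = -ι := by linear_combination h4
        rw [pow_succ, h5]
        linear_combination -hι
    refine simple_final Θ₀ hs₀ hk₀ (D2L hF h2) (H2L hF h2 hn hι hιq hqo) ?_ (D4_2L hF h2 hn) S
    intro h
    have h3 : (D2L hF h2).τ ∈ (⊥ : Subgroup (Cfsg.SU 3 F q)) := h ▸ (D2L hF h2).τ_mem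
    rw [Subgroup.mem_bot] at h3
    apply (D2L hF h2).hτn
    rw [h3]
    exact one_mem _

end Cfsg.Agent.Lib.PSU3Two
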